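import Mathlib
import Cfsg.Agent.H586.PQ.Graph
import Cfsg.Agent.H332.PQ.Rgd
import Cfsg.Agent.H55.PQ.Red
import Cfsg.Agent.BpExc.TorChev
import Cfsg.Agent.LieRecognition.FieldSemilinear
import Cfsg.Agent.H54.PQ.Elt
import Cfsg.Agent.H55.PQ.Pr

/-!
# S4981, defining characteristic `p`: Chevalley groups with a graph automorphism of order `p` (helper586)

`sfact_gr` : `SFact p q (D.group K)`.
-/

set_option autoImplicit false
set_option linter.unusedSectionVars false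

namespace Cfsg.Agent.H586.PQ

open CoxeterSystem Cfsg.Agent.ChevalleyStructure.CoxeterGeom Cfsg.Agent.Tits.Roots Cfsg.Agent.Tits.Core
  Cfsg.Agent.Nodes.Reps Cfsg.Agent.Nodes.BNOf
  Cfsg.Agent.Nodes.OppDec Cfsg.Agent.Nodes.RGDChev
  Cfsg.Agent.KFacts.RgdAut Cfsg.Agent.KFacts.RgdDiag Cfsg.Agent.KFacts.RgdRigid
  Cfsg.Agent.KFacts.RgdField Cfsg.Agent.KFacts.RgdTau Cfsg.Agent.KFacts.RgdChevCoord
  Cfsg.Agent.CpAut.RgdUntw Cfsg.Agent.BpExc.Fr
open Cfsg.Lie Cfsg.Agent.ChevalleyStructure Cfsg.Agent.ChevalleyStructure.Elts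
  Cfsg.Agent.ChevalleyStructure.NPerm Cfsg.Agent.ChevalleyStructure.CoxeterGeomTypes
  Cfsg.Agent.ChevStructure.FieldMap
open Cfsg.Agent.H54.PQ Cfsg.Agent.H55.PQ

universe u

variable {D : ChevalleyDatum} {l : ℕ} {M : CoxeterMatrix (Fin l)} {hp : IsType D l M} {K : Type u} [Field K]
  {c : ℕ} {α : MulAut ↥(D.group K)} {g : (Fin l → ℤ) ≃+ (Fin l → ℤ)} {j : Fin l}

theorem ringAut_comm (F : Type*) [Field F] [Finite F] (a b : F ≃+* F) : a * b = b * a := by
  have hc : IsCyclic (F ≃+* F) := LieRecognition.FieldSemilinear.isCyclic_ringAut F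
  exact (IsCyclic.isMulCommutative (α := F ≃+* F)).is_comm.comm a b

theorem zpow_fix (H : Gr hp K c α g j) {u : K} (hu : u ≠ 0) (β : ↥(Subgroup.zpowers α)) :
    (β : MulAut ↥(D.group K)) (hc hp j u) = hc hp j u := by
  obtain ⟨n, hn⟩ := β.2
  have h1 : α ∈ MulAction.stabilizer (MulAut ↥(D.group K)) (hc hp j u) := H.fix u hu
  have h2 := zpow_mem h1 n
  rw [← hn]
  exact h2

/-- **`SFact` for a Chevalley group with a graph automorphism of order `p`.** -/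
theorem sfact_gr [Finite K] {p q f m : ℕ} [Fact p.Prime] [CharP K p] (hf : Nat.card (K ≃+* K) = f)
    (H : Gr hp K p α g j) (hl : 0 < l) [IsSimpleGroup ↥(D.group K)]
    (hna : ∃ a b : ↥(D.group K), a * b ≠ b * a) (hs : Group.IsSolvable (Cfsg.Out ↥(D.group K)))
    (hout : Nat.card (Cfsg.Out ↥(D.group K)) ∣ m * (p * f)) (hpm : ¬ p ∣ m)
    (hm : ∀ r : ℕ, r.Prime → r ∣ m → r ∣ Nat.card ↥(D.group K)) (h2 : 2 ∣ Nat.card ↥(D.group K))
    (hadj : ∃ r < D.nroots, D.cartan j r = -1) : SFact p q ↥(D.group K) := by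
  intro hpp hqq hpq hqS
  have hqf := Fact.mk hqq
  have hW := finite_W hp (M.toCoxeterSystem)
  have R := rgd (K := K) hp M.toCoxeterSystem p
  have hG1 : RGD.Sup (XX D l K) {x | IsRoot M.toCoxeterSystem hp.isCartan x} = ⊤ := G1_eq_top hp M.toCoxeterSystem
  have hZ : Subgroup.center ↥(D.group K) = ⊥ := KFacts.RgdLieCharP.center_eq_bot hna
  have hα : orderOf α = p := by
    rcases (Nat.dvd_prime hpp).1 (orderOf_dvd_of_pow_eq_one H.pow) with h | h
    · exfalso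
      rw [orderOf_eq_one_iff] at h
      obtain ⟨i, hi⟩ := H.moves
      have hir : IsRoot M.toCoxeterSystem hp.isCartan (sr i) := isRoot_sr _ _ i
      obtain ⟨y, hy, hy1⟩ := Cfsg.Agent.Nodes.Bruhat.exists_ne_one R i
      have h5 := X_inf_X R ((H.fr.root _).2 hir) hir hi
      rw [Subgroup.eq_bot_iff_forall] at h5
      have h6 := (H.fr.map _ hir y).2 hy
      rw [h, MulAut.one_apply] at h6
      exact hy1 (h5 _ ⟨h6, hy⟩)
    · exact h
  have hq2 : q ≠ 2 := fun h => hqS (h ▸ h2)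
  let _ : CommGroup (Gam α) := { (inferInstance : Group (Gam α)) with
    mul_comm := fun a b => Prod.ext
      (Subtype.ext ((Subgroup.mem_zpowers_iff.1 a.1.2).elim fun n hn =>
        (Subgroup.mem_zpowers_iff.1 b.1.2).elim fun n' hn' => by
          show (a.1 : MulAut ↥(D.group K)) * b.1 = b.1 * a.1
          rw [← hn, ← hn', ← zpow_add, ← zpow_add, add_comm])) (ringAut_comm K a.2 b.2) }
  have hfinA : Finite (K ≃+* K) := Finite.of_injective (fun f : K ≃+* K => (f : K → K)) DFunLike.coe_injective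
  have hfin : Finite (Gam α) := inferInstance
  have hcard : Nat.card (Gam α) = p * f := by
    rw [Nat.card_prod, Nat.card_zpowers, hα, hf]
  have hkey : ∀ r : ℕ, r.Prime → ¬ r ∣ m → ∀ k : ℕ, r ^ k ∣ Nat.card (Cfsg.Out ↥(D.group K)) →
      r ^ k ∣ Nat.card (Gam α) := by
    intro r hr hrm k hk
    have h1 : (r ^ k).Coprime m := Nat.Coprime.pow_left _ ((hr.coprime_iff_not_dvd).2 hrm)
    rw [hcard]
    exact h1.dvd_of_dvd_mul_left (hk.trans hout)
  refine Cfsg.Agent.H55.PQ.Red.sfact_of_comm (Γ := Gam α) hZ hs (psi H)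
    (fun γ h1 _ => not_inner p hpp H hl fun h => ?_) (hkey p hpp hpm)
    (hkey q hqq fun h => hqS (hm q hqq h)) ?_ hpp hqq hpq hqS
  · rw [h, orderOf_one] at h1
    exact Nat.not_prime_one h1
  intro _ _ _ _ A Φ hA hsyl ha φ hφ1 hφq hφΦ hinv
  -- the graph part of `φ` is trivial
  have hφ2 : φ.1 = 1 := by
    obtain ⟨k, hk⟩ := hφq
    have h3 : orderOf φ.1 ∣ q ^ k := by
      rw [← hk]
      exact orderOf_fst_dvd_orderOf
    have h4 : orderOf φ.1 ∣ Nat.card ↥(Subgroup.zpowers α) := orderOf_dvd_natCard φ.1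
    rw [Nat.card_zpowers, hα] at h4
    have h5 : Nat.Coprime p (q ^ k) := Nat.Coprime.pow_right _ ((Nat.coprime_primes hpp hqq).2 hpq)
    have h6 := Nat.dvd_gcd h4 h3
    rw [h5.gcd_eq_one, Nat.dvd_one, orderOf_eq_one_iff] at h6
    exact h6
  have hφ3 : φ.2 ≠ 1 := fun h => hφ1 (Prod.ext hφ2 h)
  have hφ4 : ∃ k : ℕ, orderOf φ.2 = q ^ k := by
    obtain ⟨k, hk⟩ := hφq
    have h3 : orderOf φ.2 ∣ q ^ k := by
      rw [← hk]
      exact orderOf_snd_dvd_orderOf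
    obtain ⟨k', -, h4⟩ := (Nat.dvd_prime_pow hqq).1 h3
    exact ⟨k', h4⟩
  obtain ⟨u, hu0, hu1, hu2⟩ := exists_moved_elt hpp hqq hpq hq2 hφ3 hφ4 one_ne_zero (by norm_num)
  rw [pow_one] at hu2
  have hpsi : ∀ x, psi H φ x = fld D φ.2 x := fun x => by
    rw [psi_apply, hφ2]
    rfl
  have hsylU : ¬ p ∣ (RGD.Sup (XX D l K) (RGD.Pos M.toCoxeterSystem hp.isCartan)).index :=
    Cfsg.Agent.H332.PQ.index_U R hG1
  refine pr_false hpq hZ hqS (psi H) hA hsyl ha hinv hφq hφΦ (RGD.B M.toCoxeterSystem hp.isCartan (TT D K) (XX D l K))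
    (NN M.toCoxeterSystem R.nsys) (TT D K) (RGD.Sup (XX D l K) (RGD.Pos M.toCoxeterSystem hp.isCartan))
    R.isPGroup_Upos hsylU (Cfsg.Agent.H332.PQ.bnb R hG1) ?_ ?_ ?_ (Cfsg.Agent.H332.PQ.normalizer_eq_B R hG1)
    (BpExc.TorChev.TT_comm hp) (fun n hn t ht => Cfsg.Agent.H332.PQ.conj_NN R hn ht)
    (fun γ _ _ y hy => (psi_fixU H γ y).2 hy) (fun y hy => (psi_fixU H φ y).2 hy) (fun t ht => psi_mem_T H φ ht)
    ?_ (hc_mem (hp := hp) j hu0) ?_ ?_ R.tcop
  · exact fun t ht => Subgroup.mem_sup_left ht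
  · exact fun t ht => by rw [NN_eq]; exact Subgroup.mem_sup_left ht
  · exact sup_comm _ _
  · intro n hn
    refine Cfsg.Agent.H332.PQ.inv_mul_map_mem R (psi H φ) (fun t ht => psi_mem_T H φ ht) (fun i => ?_) hn
    rw [hpsi]
    have h3 : fld D φ.2 (nc hp K i) = nc hp K i := fld_nc hp φ.2 i
    rw [h3, inv_mul_cancel]
    exact one_mem _
  · intro γ k hγ
    have h3 : ∃ k : ℕ, orderOf γ.2 = p ^ k := by
      have h3 : orderOf γ.2 ∣ p ^ k := by
        rw [← hγ]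
        exact orderOf_snd_dvd_orderOf
      obtain ⟨k', -, h4⟩ := (Nat.dvd_prime_pow hpp).1 h3
      exact ⟨k', h4⟩
    rw [psi_apply, MulAut.mul_apply, fld_hc, hu1 γ.2 h3, zpow_fix H hu0]
  · rw [hpsi, fld_hc]
    intro h3
    obtain ⟨r, hr, hr'⟩ := hadj
    have hu0' : φ.2 u ≠ 0 := fun h => hu0 ((map_eq_zero_iff φ.2 φ.2.injective).1 h)
    have h4 := ch_hc (hp := hp) j hu0' hr
    rw [h3, ch_hc (hp := hp) j hu0 hr, hr', zpow_neg_one, zpow_neg_one, inv_inj] at h4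
    exact hu2 h4.symm

end Cfsg.Agent.H586.PQ
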