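import Mathlib
import Cfsg.Agent.H586.PQ.GraphMain
import Cfsg.Agent.H586.PQ.InstD4
import Cfsg.Agent.H586.PQ.InstE6
import Cfsg.Agent.H967.CopChev
import Cfsg.Agent.H149.PGOGoal
import Cfsg.Agent.H548.Crit
import Cfsg.Agent.Lib.FieldAutCard
import Cfsg.Agent.S1082
import Cfsg.Agent.S0293
import Cfsg.Agent.S1054

/-!
# S4981: the rows `PΩ₈⁺(3 ^ f)`, `p = 3`, and `E₆(2 ^ f)`, `p = 2` (helper586)

* `row_d4_three` : `SFact 3 q G` for `G ≃* PΩ₈⁺(F)`, `F` of characteristic `3`;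
* `row_e6_two`   : `SFact 2 q (chevE6.group F)`, `F` of characteristic `2`.
-/

set_option autoImplicit false

namespace Cfsg.Agent.H586.PQ

open Cfsg Cfsg.Lie Cfsg.Agent.H54.PQ Cfsg.Agent.Nodes

universe u v

theorem exists_card (F : Type u) [Field F] [Fintype F] (p : ℕ) [Fact p.Prime] [CharP F p] :
    ∃ f : ℕ, 1 ≤ f ∧ Fintype.card F = p ^ f := by
  obtain ⟨n, hpp, hn⟩ := FiniteField.card F p
  exact ⟨n, n.pos, hn⟩

theorem two_dvd_d4 {F : Type u} [Field F] [Fintype F] [CharP F 3] :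
    2 ∣ Nat.card (POmega F (quadFormPlus 4 F)) := by
  have := Fact.mk Nat.prime_three
  obtain ⟨f, hf, hF⟩ := exists_card F 3
  have h := S0293.result hF 4 le_rfl
  have hodd : Odd (3 ^ f) := Odd.pow (by decide)
  have h4 : ∀ k, 2 ∣ (3 ^ f) ^ k - 1 := fun k => (Nat.Odd.sub_odd hodd.pow odd_one).two_dvd
  rw [Finset.prod_range_succ, Finset.prod_range_succ, Finset.prod_range_succ, Finset.prod_range_zero] at h
  obtain ⟨a, ha⟩ := h4 4
  obtain ⟨b, hb⟩ := h4 (2 * (0 + 1))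
  obtain ⟨d, hd⟩ := h4 (2 * (2 + 1))
  obtain ⟨e, he⟩ := Nat.gcd_dvd_left 4 ((3 ^ f) ^ 4 - 1)
  set g := Nat.gcd 4 ((3 ^ f) ^ 4 - 1) with hg
  set S := Nat.card (POmega F (quadFormPlus 4 F)) with hS
  simp only [show 4 - 1 = 3 from rfl] at h
  rw [ha, hb, hd] at h
  have h5 : 4 * S = 16 * (e * ((3 ^ f) ^ (4 * 3) * a * b * a * d)) := by
    calc 4 * S = e * (g * S) := by rw [he]; ring
      _ = _ := by rw [h]; ring
  omega

/-- **Row `PΩ₈⁺(3 ^ f)`, `p = 3`** -/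
theorem row_d4_three {q : ℕ} {F : Type u} [Field F] [Fintype F] [CharP F 3] {G : Type v} [Group G]
    (e : G ≃* POmega F (quadFormPlus 4 F)) : SFact 3 q G := by
  have := Fact.mk Nat.prime_three
  obtain ⟨f, hf, hF⟩ := exists_card F 3
  obtain ⟨e0⟩ := S1082.result (F := F)
  obtain ⟨hs, hna⟩ := S1054.result (F := F) chevD4 (by simp)
  have hna' : ∃ a b : ↥(chevD4.group F), a * b ≠ b * a := by
    by_contra hcon
    push Not at hcon
    exact hna ⟨⟨hcon⟩⟩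
  have hfin : Finite ↥(chevD4.group F) := inferInstance
  have h2 : 2 ∣ Nat.card ↥(chevD4.group F) := by
    rw [Nat.card_congr e0.toEquiv]
    exact two_dvd_d4
  refine Cfsg.Agent.H55.PQ.Red.sfact_congr (e.trans e0.symm) (sfact_gr (m := 8) (f := f)
    (Lib.FieldAutCard.card_ringAut hf hF) D4.gr_D4 (by norm_num) hna'
    (H254.isSolvable_out_of_sch (Schreier.Chev.sch_d4 F)) ?_ (by norm_num) ?_ h2 D4.adj_D4)
  · have h3 := H149.PGO.card_out_plus (m := 4) hf hF le_rfl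
    rw [Cfsg.Agent.H548.Crit.card_out_congr e0]
    have h4 : 8 * (3 * f) = 24 * f := by ring
    rw [h4]
    exact h3
  · intro r hr h
    have h3 : r ∣ 2 ^ 3 := h
    rw [(Nat.prime_dvd_prime_iff_eq hr Nat.prime_two).1 (hr.dvd_of_dvd_pow h3)]
    exact h2

/-- **Row `E₆(2 ^ f)`, `p = 2`** -/
theorem row_e6_two {q : ℕ} {F : Type u} [Field F] [Fintype F] [CharP F 2] :
    SFact 2 q ↥(chevE6.group F) := by
  have := Fact.mk Nat.prime_two
  obtain ⟨f, hf, hF⟩ := exists_card F 2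
  obtain ⟨hs, hna⟩ := S1054.result (F := F) chevE6 (by simp)
  have hna' : ∃ a b : ↥(chevE6.group F), a * b ≠ b * a := by
    by_contra hcon
    push Not at hcon
    exact hna ⟨⟨hcon⟩⟩
  have hfin : Finite ↥(chevE6.group F) := inferInstance
  have hcard := S1063.result (F := F) (q := 2 ^ f) hF
  have hg3 : Nat.gcd 3 (2 ^ f - 1) ∣ 3 := Nat.gcd_dvd_left _ _
  have h2 : 2 ∣ Nat.card ↥(chevE6.group F) := by
    have h1 : 2 ∣ Nat.gcd 3 (2 ^ f - 1) * Nat.card ↥(chevE6.group F) := by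
      rw [hcard]
      simp only [mul_assoc]
      rw [← mul_assoc]
      exact H967.CopChev.two_dvd_of (by norm_num)
    rcases (Nat.prime_two.dvd_mul).1 h1 with h2 | h2
    · have h3 := h2.trans hg3
      omega
    · exact h2
  refine sfact_gr (m := Nat.gcd 3 (2 ^ f - 1)) (f := f)
    (Lib.FieldAutCard.card_ringAut hf hF) E6.gr_E6 (by norm_num) hna'
    (H254.isSolvable_out_of_sch (Schreier.Chev.sch_e6 F)) ?_ (fun h => ?_) ?_ h2 E6.adj_E6
  · rw [S2123.result 2 f hF]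
    have h4 : Nat.gcd 3 (2 ^ f - 1) * (2 * f) = 2 * Nat.gcd 3 (2 ^ f - 1) * f := by ring
    rw [h4]
  · have h3 := h.trans hg3
    omega
  · intro r hr h
    have h3 : r = 3 := (Nat.prime_dvd_prime_iff_eq hr Nat.prime_three).1 (h.trans (Nat.gcd_dvd_left _ _))
    subst h3
    have h4 : 3 ∣ 2 ^ f - 1 := h.trans (Nat.gcd_dvd_right _ _)
    rw [Nat.gcd_eq_left h4] at hcard
    have h5 : ∀ k, 3 ∣ (2 ^ f) ^ k - 1 := fun k => by
      have := Nat.sub_dvd_pow_sub_pow (2 ^ f) 1 k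
      rw [one_pow] at this
      exact h4.trans this
    obtain ⟨a, ha⟩ := h5 2
    obtain ⟨b, hb⟩ := h5 5
    rw [ha, hb] at hcard
    refine ⟨(2 ^ f) ^ 36 * a * b * ((2 ^ f) ^ 6 - 1) * ((2 ^ f) ^ 8 - 1) * ((2 ^ f) ^ 9 - 1) * ((2 ^ f) ^ 12 - 1), ?_⟩
    refine Nat.eq_of_mul_eq_mul_left (show 0 < 3 by norm_num) ?_
    rw [hcard]
    ring

end Cfsg.Agent.H586.PQ
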